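import Cfsg.Agent.H989.Gs.Gen

/-!
# S5719, orthogonal groups in even characteristic: involutions of `E Q` (helper842)

`mv t = [V, t]`, `rk t` its dimension; `R2 t` : `t` is a nontrivial Siegel element; `LR t` : a long root element.
-/

set_option autoImplicit false
set_option linter.unusedSectionVars false

namespace Cfsg.Agent.H842.IFE

open QuadraticMap Module Cfsg.Agent.LieClassical.OrthCore Cfsg.Agent.LieClassical.OrthTrans
  Cfsg.Agent.AutOrth.SemiSim Cfsg.Agent.H989.Gs.Gen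

variable {F V : Type*} [Field F] [AddCommGroup V] [Module F V] {Q : QuadraticForm F V}

/-- `[V, t]` -/
def mv (t : ↥(E Q)) : Submodule F V := LinearMap.range (((t : V ≃ₗ[F] V) : V →ₗ[F] V) - LinearMap.id)

/-- the dimension of `[V, t]` -/
noncomputable def rk (t : ↥(E Q)) : ℕ := finrank F (mv t)

/-- a nontrivial Siegel element -/
def R2 (t : ↥(E Q)) : Prop := t ≠ 1 ∧ ∃ e w : V, Q e = 0 ∧ polar Q e w = 0 ∧ t = S Q e w

/-- a long root element -/
def LR (t : ↥(E Q)) : Prop := t ≠ 1 ∧ ∃ e w : V, Q e = 0 ∧ Q w = 0 ∧ polar Q e w = 0 ∧ t = S Q e w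

theorem mem_mv {t : ↥(E Q)} {u : V} : u ∈ mv t ↔ ∃ v, u = ap t v - v := by
  constructor
  · rintro ⟨v, rfl⟩
    exact ⟨v, rfl⟩
  · rintro ⟨v, rfl⟩
    exact ⟨v, rfl⟩

theorem sub_mem_mv (t : ↥(E Q)) (v : V) : ap t v - v ∈ mv t := ⟨v, rfl⟩

/-- the fixed space -/
def fxs (t : ↥(E Q)) : Submodule F V := LinearMap.ker (((t : V ≃ₗ[F] V) : V →ₗ[F] V) - LinearMap.id)

theorem mem_fxs {t : ↥(E Q)} {v : V} : v ∈ fxs t ↔ ap t v = v := by
  rw [fxs, LinearMap.mem_ker]
  change ap t v - v = 0 ↔ _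
  rw [sub_eq_zero]

theorem finrank_fxs [FiniteDimensional F V] (t : ↥(E Q)) : rk t + finrank F (fxs t) = finrank F V :=
  LinearMap.finrank_range_add_finrank_ker _

theorem rk_eq_zero [FiniteDimensional F V] {t : ↥(E Q)} : rk t = 0 ↔ t = 1 := by
  rw [rk, Submodule.finrank_eq_zero]
  constructor
  · intro h
    apply ext_ap
    intro v
    have h1 := sub_mem_mv t v
    rw [h, Submodule.mem_bot, sub_eq_zero] at h1
    exact h1
  · rintro rfl
    rw [Submodule.eq_bot_iff]
    rintro _ ⟨v, rfl⟩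
    exact sub_self v

section two

variable (h2 : (2 : F) = 0)

include h2

theorem add_self2 (v : V) : v + v = 0 := by
  rw [← two_smul F v, h2, zero_smul]

theorem neg2 (v : V) : -v = v := neg_eq_of_add_eq_zero_left (add_self2 h2 v)

theorem negF (a : F) : -a = a := neg_eq_of_add_eq_zero_left (by rw [← two_mul, h2, zero_mul])

theorem polar_self2 (v : V) : polar Q v v = 0 := by
  rw [polar_self', h2, zero_mul]

variable {t : ↥(E Q)} (ht : t * t = 1)

include ht

theorem tt (v : V) : ap t (ap t v) = v := by rw [← ap_mul, ht, ap_one]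

/-- `[V, t]` is centralised by `t` -/
theorem mv_le : mv t ≤ fxs t := by
  intro u hu
  obtain ⟨v, rfl⟩ := mem_mv.1 hu
  rw [mem_fxs, ap_sub, tt h2 ht, ← neg_sub, neg2 h2]

theorem polar_n (v w : V) : polar Q (ap t v - v) w = polar Q v (ap t w - w) := by
  rw [polar_sub_left, polar_sub_right]
  have h : polar Q (ap t v) w = polar Q v (ap t w) := by
    rw [← polar_ap t (ap t v) w, tt h2 ht]
  rw [h]

theorem Q_n (v : V) : Q (ap t v - v) = polar Q v (ap t v - v) := by
  have h1 : Q (ap t v - v) = Q (ap t v) + Q v - polar Q (ap t v) v := by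
    rw [sub_eq_add_neg, Q_add, QuadraticMap.map_neg, polar_neg_right]
    ring
  rw [h1, Q_ap, polar_sub_right, polar_self2 h2, sub_zero, polar_comm (f := Q) (ap t v) v, ← two_mul, h2, zero_mul, zero_sub,
    negF h2]

/-- the fixed space is `[V, t]^⊥` -/
theorem mem_fxs_iff (hQ : Nondeg Q) {v : V} : v ∈ fxs t ↔ ∀ u ∈ mv t, polar Q u v = 0 := by
  rw [mem_fxs]
  constructor
  · intro h u hu
    obtain ⟨w, rfl⟩ := mem_mv.1 hu
    rw [polar_n h2 ht, h, sub_self, polar_zero_right]
  · intro h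
    rw [← sub_eq_zero]
    apply hQ
    intro w
    rw [polar_comm, ← polar_n h2 ht]
    exact h _ (sub_mem_mv t w)

theorem rk_le [FiniteDimensional F V] : 2 * rk t ≤ finrank F V := by
  have h1 := Submodule.finrank_mono (mv_le h2 ht)
  have h3 := finrank_fxs t
  rw [rk] at *
  omega

theorem polar_mv (hQ : Nondeg Q) {u v : V} (hu : u ∈ mv t) (hv : v ∈ mv t) : polar Q u v = 0 :=
  (mem_fxs_iff h2 ht hQ).1 (mv_le h2 ht hv) u hu

end two

end Cfsg.Agent.H842.IFE
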