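import Cfsg.Agent.H842.IF.Defs
import Cfsg.Agent.H842.IF.CW
import Cfsg.Agent.H999.IF.EngB
import Cfsg.Agent.H999.IFE.Desc
import Cfsg.Agent.LieClassical.OrthFinite

/-!
# S5719, orthogonal groups in even characteristic: from an involution to a long root element (helper842)

`CB Q` is the class bound (EV1 of `tools/plans/S5719_even.md`).
-/

set_option autoImplicit false
set_option linter.unusedSectionVars false

namespace Cfsg.Agent.H842.IFE

open QuadraticMap Module Subgroup Cfsg.Agent.LieClassical.OrthCore Cfsg.Agent.LieClassical.OrthTrans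
  Cfsg.Agent.LieClassical.OrthFinite Cfsg.Agent.AutOrth.SemiSim Cfsg.Agent.H989.Gs.Gen Cfsg.Agent.H209.Fxy
  Cfsg.Agent.H999.IFB

variable {F V : Type*} [Field F] [Fintype F] [CharP F 2] [AddCommGroup V] [Module F V] [Fintype V]
  {Q : QuadraticForm F V}

/-- the class bound -/
def CB (Q : QuadraticForm F V) : Prop := ∀ t : ↥(E Q), (∀ v, (t : V ≃ₗ[F] V) ((t : V ≃ₗ[F] V) v) = v) → ∀ k : ℕ,
    finrank F (LinearMap.range ((t : V ≃ₗ[F] V).toLinearMap - LinearMap.id)) = k →
    (centralizer ({t} : Set ↥(E Q))).index ≤ 8 * Fintype.card F ^ (k * (finrank F V - k))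

omit [Fintype V] in
/-- a totally isotropic subspace of dimension at least two contains a nonzero singular vector -/
theorem exists_sing_iso {U : Submodule F V} (hU : ∀ u ∈ U, ∀ v ∈ U, polar Q u v = 0) (h : 2 ≤ finrank F U) :
    ∃ w ∈ U, w ≠ 0 ∧ Q w = 0 := by
  have h2 : (2 : F) = 0 := CharTwo.two_eq_zero
  have hnt : Nontrivial U := Module.nontrivial_of_finrank_pos (R := F) (by omega)
  obtain ⟨x, hx⟩ := exists_ne (0 : U)
  obtain ⟨y, hy⟩ := exists_linearIndependent_pair_of_one_lt_finrank (R := F) (M := U) (by omega) hx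
  by_cases hQx : Q (x : V) = 0
  · exact ⟨x, x.2, fun h0 => hx (Subtype.ext h0), hQx⟩
  · obtain ⟨c, hc⟩ := FiniteField.isSquare_of_char_two (CharP.eq F (ringChar.charP F) inferInstance)
      (Q (y : V) / Q (x : V))
    refine ⟨((c • x + y : U) : V), Submodule.coe_mem _, fun h0 => ?_, ?_⟩
    · have h1 : c • x + (1 : F) • y = 0 := by rw [one_smul]; exact Subtype.ext h0
      have h3 := (LinearIndependent.pair_iff.1 hy) c 1 h1
      exact one_ne_zero h3.2
    · rw [Submodule.coe_add, Submodule.coe_smul, Q_add, QuadraticMap.map_smul, polar_smul_left, hU x x.2 y y.2, smul_zero,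
        add_zero, smul_eq_mul, ← hc, div_mul_cancel₀ _ hQx, ← two_mul, h2, zero_mul]

/-! ### Siegel elements with a fixed first vector -/

/-- `x ↦ S Q w x` -/
noncomputable def sHom {w : V} (hw : Q w = 0) (X : Submodule F V) (hX : ∀ x ∈ X, polar Q w x = 0) :
    Multiplicative X →* ↥(E Q) where
  toFun x := S Q w (x.toAdd : V)
  map_one' := S_zero w
  map_mul' x y := S_add hw (hX _ x.toAdd.2) (hX _ y.toAdd.2)

omit [Fintype F] [CharP F 2] [Fintype V] in
theorem line_of_S_eq_one (hQ : Nondeg Q) {w z : V} (hw : Q w = 0) (hw0 : w ≠ 0) (hz : polar Q w z = 0)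
    (h : S Q w z = 1) : ∃ c : F, z = c • w := by
  refine mem_line_of_scalar hQ hw hw0 hz (c := 1) fun v => ?_
  rw [S_eq hw hz] at h
  rw [h, one_smul]
  rfl

omit [CharP F 2] in
/-- the group of the `S Q w x`, `x ∈ X`, has at least `|X| / |F|` elements -/
theorem exists_group (hQ : Nondeg Q) {w : V} (hw : Q w = 0) (hw0 : w ≠ 0) {X : Submodule F V}
    (hX : ∀ x ∈ X, polar Q w x = 0) {n : ℕ} (hn : finrank F X = n + 1) :
    ∃ X' : Submodule F V, X' ≤ X ∧ (∀ x ∈ X', ∀ c : F, x = c • w → x = 0) ∧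
      ∃ B : Subgroup ↥(E Q), Nat.card B = Nat.card X' ∧ Fintype.card F ^ n ≤ Nat.card B ∧
        (∀ g ∈ B, ∃ x ∈ X', g = S Q w x) := by
  obtain ⟨C, hC⟩ := Submodule.exists_isCompl (Submodule.span F {w})
  have hX' : X ⊓ C ≤ X := inf_le_left
  have hline : ∀ x ∈ X ⊓ C, ∀ c : F, x = c • w → x = 0 := by
    rintro x ⟨-, hx⟩ c hc
    have h1 : x ∈ Submodule.span F {w} := by
      rw [hc]; exact Submodule.smul_mem _ _ (Submodule.mem_span_singleton_self w)
    have h3 : x ∈ Submodule.span F {w} ⊓ C := ⟨h1, hx⟩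
    rwa [hC.inf_eq_bot, Submodule.mem_bot] at h3
  have hX'' : ∀ x ∈ X ⊓ C, polar Q w x = 0 := fun x hx => hX x hx.1
  have hinj : Function.Injective (sHom hw (X ⊓ C) hX'') := by
    intro x y hxy
    have h1 : sHom hw (X ⊓ C) hX'' (x / y) = 1 := by rw [map_div, hxy, div_self']
    obtain ⟨c, hc⟩ := line_of_S_eq_one hQ hw hw0 (hX'' _ (x / y).toAdd.2) h1
    have h3 := hline _ (x / y).toAdd.2 c hc
    have h4 : (x / y).toAdd = 0 := Subtype.ext h3
    have h5 : x / y = 1 := h4
    exact div_eq_one.1 h5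
  have hcard : Nat.card (sHom hw (X ⊓ C) hX'').range = Nat.card ↥(X ⊓ C) := by
    rw [Nat.card_congr (MonoidHom.ofInjective hinj).toEquiv.symm]
    exact Nat.card_congr Multiplicative.toAdd
  have hfr : n ≤ finrank F ↥(X ⊓ C) := by
    have h1 := Submodule.finrank_sup_add_finrank_inf_eq X C
    have h3 := Submodule.finrank_add_eq_of_isCompl hC
    rw [finrank_span_singleton hw0] at h3
    have h4 := Submodule.finrank_le (X ⊔ C)
    omega
  refine ⟨X ⊓ C, hX', hline, (sHom hw (X ⊓ C) hX'').range, hcard, ?_, ?_⟩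
  · rw [hcard, Module.natCard_eq_pow_finrank (K := F) (V := ↥(X ⊓ C)), Nat.card_eq_fintype_card]
    exact Nat.pow_le_pow_right Fintype.card_pos hfr
  · rintro _ ⟨x, rfl⟩
    exact ⟨_, x.toAdd.2, rfl⟩

section abs

variable {T : Type*} [Group T] [Finite T] {A : Subgroup T}

theorem exists_mem_of_relIndex_lt {B : Subgroup T} (h : A.relIndex B < Nat.card B) : ∃ g ∈ B, g ∈ A ∧ g ≠ 1 := by
  by_contra hcon
  push Not at hcon
  have h1 : A.subgroupOf B = ⊥ := by
    rw [eq_bot_iff]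
    intro g hg
    rw [mem_bot]
    exact Subtype.ext (hcon g g.2 hg)
  rw [relIndex, h1, index_bot] at h
  exact lt_irrefl _ h

theorem card_of_relIndex (A B : Subgroup T) : Nat.card (A.subgroupOf B) * A.relIndex B = Nat.card B :=
  (A.subgroupOf B).card_mul_index

end abs

section inv


theorem finite_E {F V : Type*} [Field F] [AddCommGroup V] [Module F V] [Finite V] (Q : QuadraticForm F V) :
    Finite ↥(E Q) :=
  Finite.of_injective (fun g v => ap g v) fun _ _ h => ext_ap fun v => congrFun h v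

variable {A : Subgroup ↥(E Q)} {Γ : Subgroup (MulAut ↥(E Q))}

omit [Fintype F] [CharP F 2] [Fintype V] in
theorem sq_of_order {t : ↥(E Q)} (ho : orderOf t = 2) : t * t = 1 := by
  rw [← pow_two, ← ho, pow_orderOf_eq_one]

omit [Fintype F] [CharP F 2] [Fintype V] in
theorem sq_ap {t : ↥(E Q)} (ht : t * t = 1) (v : V) : (t : V ≃ₗ[F] V) ((t : V ≃ₗ[F] V) v) = v := by
  change ap t (ap t v) = v
  rw [← ap_mul, ht, ap_one]

/-- `|B : A ∩ B|⁵ < 8 q^(k(m-k))` -/
theorem relIndex_pow_lt [IsSimpleGroup ↥(E Q)] (hcb : CB Q) (hna : ∃ a b : ↥(E Q), a * b ≠ b * a) (h : IF A Γ) {t : ↥(E Q)}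
    (ht : t ∈ A) (ho : orderOf t = 2) {B : Subgroup ↥(E Q)} (hB : B ≤ centralizer ({t} : Set ↥(E Q))) {j : ℕ}
    (hj : rk t * (finrank F V - rk t) + 3 ≤ 5 * j) : A.relIndex B < Fintype.card F ^ j := by
  have := finite_E Q
  have h1 := ((IF.E2' h hna ht ho).2.2.2.2 B hB).1
  have h3 := hcb t (sq_ap (sq_of_order ho)) (rk t) rfl
  have hq : 2 ≤ Fintype.card F := Fintype.one_lt_card
  have h4 : A.relIndex B ^ 5 < (Fintype.card F ^ j) ^ 5 := by
    calc A.relIndex B ^ 5 < _ := h1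
      _ ≤ 8 * Fintype.card F ^ (rk t * (finrank F V - rk t)) := h3
      _ ≤ Fintype.card F ^ 3 * Fintype.card F ^ (rk t * (finrank F V - rk t)) := by
          refine Nat.mul_le_mul_right _ ?_
          calc 8 = 2 ^ 3 := by norm_num
            _ ≤ _ := Nat.pow_le_pow_left hq 3
      _ = Fintype.card F ^ (rk t * (finrank F V - rk t) + 3) := by rw [pow_add, mul_comm]
      _ ≤ Fintype.card F ^ (5 * j) := Nat.pow_le_pow_right Fintype.card_pos hj
      _ = _ := by rw [mul_comm, pow_mul]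
  exact lt_of_pow_lt_pow_left₀ 5 (Nat.zero_le _) h4

/-- the rank of a Siegel element is at most two -/
theorem rk_S_le {w x : V} (hw : Q w = 0) (hx : polar Q w x = 0) : rk (S Q w x) ≤ 2 := by
  classical
  have h1 : mv (S Q w x) ≤ Submodule.span F (({w, x} : Finset V) : Set V) := by
    intro u hu
    obtain ⟨v, rfl⟩ := mem_mv.1 hu
    rw [S_ap hw hx]
    have hw' : w ∈ Submodule.span F (({w, x} : Finset V) : Set V) := Submodule.subset_span (by simp)
    have hx' : x ∈ Submodule.span F (({w, x} : Finset V) : Set V) := Submodule.subset_span (by simp)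
    have e : v + polar Q w v • x - polar Q x v • w - (Q x * polar Q w v) • w - v =
        polar Q w v • x - polar Q x v • w - (Q x * polar Q w v) • w := by abel
    rw [e]
    exact Submodule.sub_mem _ (Submodule.sub_mem _ (Submodule.smul_mem _ _ hx') (Submodule.smul_mem _ _ hw'))
      (Submodule.smul_mem _ _ hw')
  exact (Submodule.finrank_mono h1).trans ((finrank_span_finset_le_card _).trans Finset.card_le_two)

omit [Fintype F] [Fintype V] in
theorem S_sq {w x : V} (hw : Q w = 0) (hx : polar Q w x = 0) : S Q w x * S Q w x = 1 := by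
  rw [← S_add hw hx hx, add_self2 (CharTwo.two_eq_zero (R := F)), S_zero]

/-- from rank 3 or 4 to rank at most 2 -/
theorem step_three [IsSimpleGroup ↥(E Q)] (hcb : CB Q) (hQ : Nondeg Q) (hd : 8 ≤ finrank F V)
    (hna : ∃ a b : ↥(E Q), a * b ≠ b * a) (h : IF A Γ) {t : ↥(E Q)} (ht : t ∈ A) (ho : orderOf t = 2) (h3 : 3 ≤ rk t)
    (h4 : rk t ≤ 4) : ∃ g ∈ A, orderOf g = 2 ∧ rk g ≤ 2 := by
  have := finite_E Q
  have h2 : (2 : F) = 0 := CharTwo.two_eq_zero
  have hsq := sq_of_order ho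
  obtain ⟨w, hwU, hw0, hw⟩ := exists_sing_iso (U := mv t) (fun u hu v hv => polar_mv h2 hsq hQ hu hv)
    (show 2 ≤ rk t by omega)
  obtain ⟨u, hu⟩ := mem_mv.1 hwU
  have huK : u ∉ fxs t := by
    intro hcon
    rw [mem_fxs] at hcon
    rw [hcon, sub_self] at hu
    exact hw0 hu
  have hX : ∀ x ∈ fxs t ⊔ Submodule.span F {u}, polar Q w x = 0 ∧ ∃ c : F, ap t x = x + c • w := by
    intro x hx
    obtain ⟨y, hy, z, hz, rfl⟩ := Submodule.mem_sup.1 hx
    obtain ⟨c, rfl⟩ := Submodule.mem_span_singleton.1 hz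
    constructor
    · rw [polar_add_right, polar_smul_right, (mem_fxs_iff h2 hsq hQ).1 hy w hwU, zero_add, polar_comm, hu, ← Q_n h2 hsq,
        ← hu, hw, smul_zero]
    · refine ⟨c, ?_⟩
      rw [ap_add, ap_smul, mem_fxs.1 hy, hu]
      module
  have hfr : finrank F ↥(fxs t ⊔ Submodule.span F {u}) = finrank F V - rk t + 1 := by
    have h5 := Submodule.finrank_sup_add_finrank_inf_eq (fxs t) (Submodule.span F {u})
    have h6 : fxs t ⊓ Submodule.span F {u} = ⊥ := by
      rw [eq_bot_iff]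
      rintro x ⟨hx, hx'⟩
      obtain ⟨c, rfl⟩ := Submodule.mem_span_singleton.1 hx'
      by_cases hc : c = 0
      · rw [hc, zero_smul]; exact Submodule.zero_mem _
      · exact absurd (((fxs t).smul_mem_iff hc).1 hx) huK
    have hu0 : u ≠ 0 := by
      rintro rfl
      exact huK (Submodule.zero_mem _)
    rw [h6, finrank_bot, finrank_span_singleton hu0] at h5
    have h7 := finrank_fxs t
    omega
  obtain ⟨X', hX'X, -, B, -, hBc, hB⟩ := exists_group hQ hw hw0 (fun x hx => (hX x hx).1) hfr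
  have hBt : B ≤ centralizer ({t} : Set ↥(E Q)) := by
    intro g hg
    obtain ⟨x, hx, rfl⟩ := hB g hg
    obtain ⟨h5, c, h6⟩ := hX x (hX'X hx)
    rw [mem_centralizer_singleton_iff]
    have h7 := S_conj t w x
    rw [mem_fxs.1 (mv_le h2 hsq hwU), h6, S_add hw h5 (by rw [polar_smul_right, polar_self_of_sing hw, smul_zero]),
      S_self_smul c hw, mul_one, mul_inv_eq_iff_eq_mul] at h7
    exact h7.symm
  have hlt := relIndex_pow_lt hcb hna h ht ho hBt (j := finrank F V - rk t) (by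
    have : rk t * (finrank F V - rk t) ≤ 4 * (finrank F V - rk t) := Nat.mul_le_mul_right _ h4
    omega)
  obtain ⟨g, hgB, hgA, hg1⟩ := exists_mem_of_relIndex_lt (hlt.trans_le hBc)
  obtain ⟨x, hx, rfl⟩ := hB g hgB
  obtain ⟨h5, -⟩ := hX x (hX'X hx)
  refine ⟨_, hgA, ?_, rk_S_le hw h5⟩
  exact orderOf_eq_prime (by rw [pow_two, S_sq hw h5]) hg1

/-- the step from rank at least 5 -/
theorem step_five [IsSimpleGroup ↥(E Q)] (hcb : CB Q) (hQ : Nondeg Q)
    (hna : ∃ a b : ↥(E Q), a * b ≠ b * a) (h : IF A Γ) {t : ↥(E Q)} (ht : t ∈ A) (ho : orderOf t = 2) (h5 : 5 ≤ rk t) :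
    ∃ g ∈ A, orderOf g = 2 ∧ rk g < rk t := by
  have := finite_E Q
  have h2 : (2 : F) = 0 := CharTwo.two_eq_zero
  have hsq := sq_of_order ho
  have hle := rk_le h2 hsq
  obtain ⟨B, hBt, hBc, hB⟩ := Cfsg.Agent.H999.IFE.exists_desc hQ rfl (sq_ap hsq) (rfl : _ = rk t) (s := (rk t - 1) / 2) (by omega)
  have hlt := relIndex_pow_lt hcb hna h ht ho hBt (j := (rk t - 1) / 2 * (finrank F V - rk t - (rk t - 1) / 2)) (by
    obtain ⟨r, hr⟩ := Nat.exists_eq_add_of_le hle
    obtain ⟨s, hs⟩ : ∃ s, rk t = 2 * s + 1 ∨ rk t = 2 * s + 2 := ⟨(rk t - 1) / 2, by omega⟩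
    have hs2 : 2 ≤ s := by omega
    have hs' : (rk t - 1) / 2 = s := by omega
    rw [hs']
    rcases hs with hs | hs
    · have e1 : finrank F V - rk t = 2 * s + 1 + r := by omega
      have e2 : finrank F V - rk t - s = s + 1 + r := by omega
      rw [e2, e1, hs]
      nlinarith
    · have e1 : finrank F V - rk t = 2 * s + 2 + r := by omega
      have e2 : finrank F V - rk t - s = s + 2 + r := by omega
      rw [e2, e1, hs]
      nlinarith)
  obtain ⟨g, hgB, hgA, hg1⟩ := exists_mem_of_relIndex_lt (hlt.trans_le hBc)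
  by_cases hgg : g * g = 1
  · exact ⟨g, hgA, orderOf_eq_prime (by rw [pow_two, hgg]) hg1, lt_of_le_of_lt (hB g hgB).2 (by omega)⟩
  · refine ⟨g * g, mul_mem hgA hgA, orderOf_eq_prime ?_ hgg, lt_of_le_of_lt (hB _ (mul_mem hgB hgB)).2 (by omega)⟩
    apply ext_ap
    intro v
    rw [pow_two, ap_mul, ap_mul, ap_mul]
    exact (hB g hgB).1 v

/-- the final step: from rank at most 2 to a long root element -/
theorem step_two [IsSimpleGroup ↥(E Q)] (hcb : CB Q) (hQ : Nondeg Q) (hd : 8 ≤ finrank F V)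
    (hna : ∃ a b : ↥(E Q), a * b ≠ b * a) (h : IF A Γ) {t : ↥(E Q)} (ht : t ∈ A) (ho : orderOf t = 2) (hk : rk t ≤ 2) :
    ∃ z ∈ A, LR z := by
  have := finite_E Q
  have h2 : (2 : F) = 0 := CharTwo.two_eq_zero
  have hsq := sq_of_order ho
  have hk0 : rk t ≠ 0 := by
    rw [Ne, rk_eq_zero]
    rintro rfl
    rw [orderOf_one] at ho
    exact absurd ho (by norm_num)
  have hfx := finrank_fxs t
  -- the vector `w`
  obtain ⟨w, hwK, hw0, hw, X, hXK, hXw, hXf⟩ : ∃ w ∈ fxs t, w ≠ 0 ∧ Q w = 0 ∧ ∃ X : Submodule F V, X ≤ fxs t ∧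
      (∀ x ∈ X, polar Q w x = 0) ∧ finrank F V - 2 ≤ finrank F X := by
    rcases (by omega : rk t = 2 ∨ rk t = 1) with hk2 | hk1
    · obtain ⟨w, hwU, hw0, hw⟩ := exists_sing_iso (U := mv t) (fun u hu v hv => polar_mv h2 hsq hQ hu hv)
        (show 2 ≤ rk t by omega)
      exact ⟨w, mv_le h2 hsq hwU, hw0, hw, fxs t, le_rfl, fun x hx => (mem_fxs_iff h2 hsq hQ).1 hx w hwU, by omega⟩
    · obtain ⟨w, hwK, hw0, hw⟩ := exists_sing_mem (Q := Q) (fxs t) (by omega)
      refine ⟨w, hwK, hw0, hw, fxs t ⊓ LinearMap.ker (polarBilin Q w), inf_le_left, fun x hx => hx.2, ?_⟩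
      have h5 := Submodule.finrank_sup_add_finrank_inf_eq (fxs t) (LinearMap.ker (polarBilin Q w))
      have h6 := LinearMap.finrank_range_add_finrank_ker (polarBilin Q w)
      have h7 : finrank F (LinearMap.range (polarBilin Q w)) ≤ 1 := by
        refine (Submodule.finrank_le _).trans ?_
        rw [Module.finrank_self]
      have h8 := Submodule.finrank_le (fxs t ⊔ LinearMap.ker (polarBilin Q w))
      omega
  obtain ⟨X', hX'X, hline, B, hBX, hBc, hB⟩ := exists_group hQ hw hw0 hXw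
    (n := finrank F X - 1) (by omega)
  have hBt : B ≤ centralizer ({t} : Set ↥(E Q)) := by
    intro g hg
    obtain ⟨x, hx, rfl⟩ := hB g hg
    rw [mem_centralizer_singleton_iff]
    exact (S_comm (mem_fxs.1 hwK) (mem_fxs.1 (hXK (hX'X hx)))).symm
  have hlt := relIndex_pow_lt hcb hna h ht ho hBt (j := finrank F V - 5) (by
    rcases (by omega : rk t = 2 ∨ rk t = 1) with hk2 | hk1
    · rw [hk2]; omega
    · rw [hk1]; omega)
  -- the additive group of the `x` with `S Q w x ∈ A`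
  let Y : AddSubgroup V :=
    { carrier := {x | x ∈ X' ∧ S Q w x ∈ A}
      zero_mem' := ⟨Submodule.zero_mem _, by rw [S_zero]; exact one_mem _⟩
      add_mem' := by
        rintro x y ⟨hx, hx'⟩ ⟨hy, hy'⟩
        refine ⟨Submodule.add_mem _ hx hy, ?_⟩
        rw [S_add hw (hXw x (hX'X hx)) (hXw y (hX'X hy))]
        exact mul_mem hx' hy'
      neg_mem' := by
        rintro x ⟨hx, hx'⟩
        refine ⟨Submodule.neg_mem _ hx, ?_⟩
        rw [neg2 h2]
        exact hx' }
  have hY : Nat.card (A.subgroupOf B) ≤ Nat.card Y := by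
    have hch : ∀ g : A.subgroupOf B, ∃ x ∈ X', ((g : B) : ↥(E Q)) = S Q w x := fun g => hB _ (g : B).2
    choose x hx1 hx2 using hch
    have hm : ∀ g : A.subgroupOf B, x g ∈ Y := fun g => ⟨hx1 g, by rw [← hx2 g]; exact g.2⟩
    refine Nat.card_le_card_of_injective (fun g => (⟨x g, hm g⟩ : Y)) ?_
    intro g g' hgg
    have h5 : x g = x g' := congrArg Subtype.val hgg
    apply Subtype.ext
    apply Subtype.ext
    rw [hx2 g, hx2 g', h5]
  have hY2 : Fintype.card F ^ 2 < Nat.card Y := by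
    refine lt_of_lt_of_le ?_ hY
    have h5 := card_of_relIndex A B
    have hq : 0 < Fintype.card F := Fintype.card_pos
    by_contra hcon
    push Not at hcon
    have h6 : Nat.card B < Fintype.card F ^ (finrank F X - 1) := by
      calc Nat.card B = Nat.card (A.subgroupOf B) * A.relIndex B := h5.symm
        _ ≤ Fintype.card F ^ 2 * A.relIndex B := Nat.mul_le_mul_right _ hcon
        _ < Fintype.card F ^ 2 * Fintype.card F ^ (finrank F V - 5) := Nat.mul_lt_mul_of_pos_left hlt (pow_pos hq 2)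
        _ = Fintype.card F ^ (2 + (finrank F V - 5)) := by rw [pow_add]
        _ ≤ _ := Nat.pow_le_pow_right hq (by omega)
    omega
  obtain ⟨y, ⟨hyX, hyA⟩, hy0, hyQ⟩ := exists_singular Q Y hY2
  refine ⟨_, hyA, fun h1 => ?_, w, y, hw, hyQ, hXw y (hX'X hyX), rfl⟩
  obtain ⟨c, hc⟩ := line_of_S_eq_one hQ hw hw0 (hXw y (hX'X hyX)) h1
  exact hy0 (hline y hyX c hc)

/-- **DESCENT**: an involution in `A` gives a long root element in `A` -/
theorem exists_LR [IsSimpleGroup ↥(E Q)] (hcb : CB Q) (hQ : Nondeg Q) (hd : 8 ≤ finrank F V)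
    (hna : ∃ a b : ↥(E Q), a * b ≠ b * a) (h : IF A Γ) {t : ↥(E Q)} (ht : t ∈ A) (ho : orderOf t = 2) :
    ∃ z ∈ A, LR z := by
  obtain ⟨k, hk⟩ : ∃ k, rk t = k := ⟨_, rfl⟩
  induction k using Nat.strong_induction_on generalizing t with
  | _ k ih =>
    by_cases h5 : 5 ≤ rk t
    · obtain ⟨g, hg, hgo, hgk⟩ := step_five hcb hQ hna h ht ho h5
      exact ih (rk g) (by omega) hg hgo rfl
    by_cases h3 : 3 ≤ rk t
    · obtain ⟨g, hg, hgo, hgk⟩ := step_three hcb hQ hd hna h ht ho h3 (by omega)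
      exact ih (rk g) (by omega) hg hgo rfl
    · exact step_two hcb hQ hd hna h ht ho (by omega)

end inv

end Cfsg.Agent.H842.IFE
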